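import Cfsg.Agent.H858.Co3.EigMul

/-!
# S1920, EIG (helper858)

`K : Kit N0 A E z s x r ψ`, `ρ` a representation of `C_G(z)` of dimension 16 over an algebraically closed field, `z = -1`,
`E` faithful:
* `eig_ne3` : impossible in characteristic `≠ 2, 3`;
* `eig_ne5` : in characteristic `≠ 2, 5` the eigenvalues of the elements `s y` are not closed under `l ↦ l ^ e`.
-/

set_option autoImplicit false

open Subgroup Module
open scoped commutatorElement Pointwise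

namespace Cfsg.Agent.H858.Co3

open Cfsg.Agent.H415.C3

variable {G : Type*} [Group G] {N0 A E : Subgroup G} {z s x r : G} {ψ : ↥A →* Equiv.Perm (Fin 6)}
variable {k V : Type*} [Field k] [AddCommGroup V] [Module k V]

theorem comm_top {Γ : Type*} [Group Γ] {E : Subgroup Γ} (h : ⁅E, E⁆ = E) : commutator ↥E = ⊤ := by
  have h6 : (commutator ↥E).map E.subtype = E := by
    rw [commutator_def, Subgroup.map_commutator]
    simp only [← MonoidHom.range_eq_map, Subgroup.range_subtype]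
    exact h
  refine Subgroup.map_injective E.subtype_injective ?_
  rw [h6, ← MonoidHom.range_eq_map, Subgroup.range_subtype]

theorem c3_e5 : c3 * e5 ≠ e5 * c3 := by decide

/-- two commuting normal subgroups with non trivial image -/
theorem two_normal {D : Type*} [Group D] (ψ : D →* Equiv.Perm (Fin 6))
    (himg : ∀ π : Equiv.Perm (Fin 6), Equiv.Perm.sign π = 1 → ∃ g, ψ g = π)
    (heven : ∀ g, Equiv.Perm.sign (ψ g) = 1) (D₁ D₂ : Subgroup D) (hD₁ : D₁.Normal) (hD₂ : D₂.Normal)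
    (hc : ∀ a ∈ D₁, ∀ b ∈ D₂, a * b = b * a) (h₁ : ∃ g ∈ D₁, ψ g ≠ 1) (h₂ : ∃ g ∈ D₂, ψ g ≠ 1) : False := by
  have key : ∀ D₁ : Subgroup D, D₁.Normal → (∃ g ∈ D₁, ψ g ≠ 1) → ∀ π : Equiv.Perm (Fin 6), Equiv.Perm.sign π = 1 →
      ∃ g ∈ D₁, ψ g = π := by
    intro D₁ hD₁ h₁ π hπ
    have hsimple : IsSimpleGroup (alternatingGroup (Fin 6)) := alternatingGroup.isSimpleGroup (by simp)
    let S : Subgroup (Equiv.Perm (Fin 6)) := D₁.map ψ
    let T : Subgroup (alternatingGroup (Fin 6)) := S.subgroupOf (alternatingGroup (Fin 6))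
    have hT : T.Normal := by
      refine ⟨fun a ha g => ?_⟩
      rw [mem_subgroupOf] at ha ⊢
      obtain ⟨u, hu, hua⟩ := ha
      obtain ⟨w, hw⟩ := himg g (Equiv.Perm.mem_alternatingGroup.1 g.2)
      refine ⟨w * u * w⁻¹, hD₁.conj_mem u hu w, ?_⟩
      rw [map_mul, map_mul, map_inv, hua, hw]
      rfl
    rcases hsimple.eq_bot_or_eq_top_of_normal T hT with h | h
    · exfalso
      obtain ⟨g, hg, hne⟩ := h₁
      have h1 : (⟨ψ g, Equiv.Perm.mem_alternatingGroup.2 (heven g)⟩ : alternatingGroup (Fin 6)) ∈ T :=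
        mem_subgroupOf.2 ⟨g, hg, rfl⟩
      rw [h, Subgroup.mem_bot] at h1
      exact hne (congrArg Subtype.val h1)
    · have h1 : (⟨π, Equiv.Perm.mem_alternatingGroup.2 hπ⟩ : alternatingGroup (Fin 6)) ∈ T := by rw [h]; trivial
      exact mem_subgroupOf.1 h1
  obtain ⟨g1, hg1, hg1'⟩ := key D₁ hD₁ h₁ c3 sign_c3
  obtain ⟨g2, hg2, hg2'⟩ := key D₂ hD₂ h₂ e5 sign_e5
  apply c3_e5
  rw [← hg1', ← hg2', ← map_mul, ← map_mul, hc g1 hg1 g2 hg2]

/-! ### the representation of `E` -/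

section rep

variable (K : Kit N0 A E z s x r ψ) (R : ↥(centralizer ({z} : Set G)) →* (V →ₗ[k] V))

/-- the restriction to `E` -/
def RE : ↥E →* (V →ₗ[k] V) := R.comp (inclusion (fun e he => E_H K e he))

theorem RE_apply (e : ↥E) (v : V) : RE K R e v = R ⟨e, E_H K e e.2⟩ v := rfl

theorem RE_comm (e : ↥E) (n : G) (hn : n ∈ N0) (v : V) :
    RE K R e (R ⟨n, N_H K n hn⟩ v) = R ⟨n, N_H K n hn⟩ (RE K R e v) :=
  R_com R _ _ (K.E_comm e e.2 n hn) v

/-- the map to the permutations -/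
def ψE : ↥E →* Equiv.Perm (Fin 6) := ψ.comp (inclusion K.E_A)

theorem ψE_img (π : Equiv.Perm (Fin 6)) (hπ : Equiv.Perm.sign π = 1) : ∃ g, ψE K g = π := by
  obtain ⟨e, he, h⟩ := K.E_img π hπ
  exact ⟨⟨e, he⟩, h (K.E_A he)⟩

theorem ψE_even (g : ↥E) : Equiv.Perm.sign (ψE K g) = 1 :=
  K.even_of_comm (K.E_comm g g.2) (K.E_A g.2)

end rep

/-- everything about the two multiplicity spaces -/
theorem decomp [Finite G] (K : Kit N0 A E z s x r ψ) (R : ↥(centralizer ({z} : Set G)) →* (V →ₗ[k] V))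
    (hV : finrank k V = 16) (h2 : (2 : k) ≠ 0) (hz : z ∈ centralizer ({z} : Set G)) (hRz : ∀ v, R ⟨z, hz⟩ v = -v)
    {i : k} (hi : i * i = -1) :
    ∃ U : Submodule k V, ∃ hU : ∀ e : ↥E, ∀ u ∈ U, RE K R e u ∈ U, finrank k U = 2 ∧
      (∀ u ∈ U, R ⟨s, s_H K⟩ u = i • u) ∧ (∀ e : ↥E, LinearMap.det (res (RE K R) U hU e) = 1) ∧
      (∀ e : ↥E, res (RE K R) U hU e = 1 → ∀ v, R ⟨s, s_H K⟩ v = i • v → RE K R e v = v) ∧
      (∀ e : ↥E, ∀ α β : k, (∀ u ∈ U, RE K R e (RE K R e u) = (α + β) • RE K R e u - (α * β) • u) →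
        ∀ v, v ≠ 0 → R ⟨s, s_H K⟩ v = i • v → ∀ m : k, RE K R e v = m • v → m = α ∨ m = β) := by
  obtain ⟨U, hU2, hUs, hUT⟩ := mulspace K R hV h2 hz hRz hi
  have hU : ∀ e : ↥E, ∀ u ∈ U, RE K R e u ∈ U := fun e =>
    (hUT (RE K R e) (fun n hn v => RE_comm K R e n hn v)).1
  refine ⟨U, hU, hU2, hUs, fun e => det_one (comm_top K.E_perf) _ e, fun e he v hv => ?_, fun e α β hu v hv0 hv m hm => ?_⟩
  · have h1 := (hUT (RE K R e - 1) (fun n hn v => by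
      rw [LinearMap.sub_apply, LinearMap.sub_apply, Module.End.one_apply, Module.End.one_apply, RE_comm K R e n hn,
        map_sub])).2 (fun u hu => by
      have h3 := congrArg (fun f : ↥U →ₗ[k] ↥U => ((f ⟨u, hu⟩ : ↥U) : V)) he
      rw [LinearMap.sub_apply, Module.End.one_apply, sub_eq_zero]
      exact h3) v hv
    rwa [LinearMap.sub_apply, Module.End.one_apply, sub_eq_zero] at h1
  · have h1 := (hUT (RE K R e * RE K R e - (α + β) • RE K R e + (α * β) • 1) (fun n hn v => by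
      simp only [LinearMap.sub_apply, LinearMap.add_apply, LinearMap.smul_apply, Module.End.one_apply,
        Module.End.mul_apply, RE_comm K R e n hn, map_sub, map_add, map_smul])).2 (fun u hu' => by
      simp only [LinearMap.sub_apply, LinearMap.add_apply, LinearMap.smul_apply, Module.End.one_apply,
        Module.End.mul_apply, hu u hu']
      abel) v hv
    simp only [LinearMap.sub_apply, LinearMap.add_apply, LinearMap.smul_apply, Module.End.one_apply,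
        Module.End.mul_apply, hm, map_smul] at h1
    have h2 : ((m - α) * (m - β)) • v = 0 := by
      rw [← h1, smul_smul, smul_smul, ← sub_smul, ← add_smul]
      congr 1
      ring
    rcases mul_eq_zero.1 ((smul_eq_zero.1 h2).resolve_right hv0) with h | h
    · exact Or.inl (sub_eq_zero.1 h)
    · exact Or.inr (sub_eq_zero.1 h)

/-- an element trivial on both eigenspaces is trivial -/
theorem triv_of [Finite G] (K : Kit N0 A E z s x r ψ) (R : ↥(centralizer ({z} : Set G)) →* (V →ₗ[k] V))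
    (h2 : (2 : k) ≠ 0) (hz : z ∈ centralizer ({z} : Set G)) (hRz : ∀ v, R ⟨z, hz⟩ v = -v)
    {i : k} (hi : i * i = -1) (e : ↥E) (h₁ : ∀ v, R ⟨s, s_H K⟩ v = i • v → RE K R e v = v)
    (h₂ : ∀ v, R ⟨s, s_H K⟩ v = (-i) • v → RE K R e v = v) : RE K R e = 1 := by
  have hi0 : i ≠ 0 := by
    rintro rfl
    rw [mul_zero] at hi
    exact absurd hi (by simp)
  have hSS : ∀ v, R ⟨s, s_H K⟩ (R ⟨s, s_H K⟩ v) = (i * i) • v := by
    intro v
    rw [R_mul R (s_H K) (s_H K) hz K.s_sq, hRz, hi, neg_one_smul]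
  ext v
  obtain ⟨u, hu, w, hw, rfl⟩ := split h2 hi0 (R ⟨s, s_H K⟩) ⊤ (fun _ _ => trivial) (fun v _ => hSS v)
    (u := v) trivial
  rw [map_add, h₁ u (mem_eig.1 hu).2, h₂ w (mem_eig.1 hw).2, Module.End.one_apply]

variable [IsAlgClosed k]

theorem exists_i (_h2 : (2 : k) ≠ 0) : ∃ i : k, i * i = -1 := by
  obtain ⟨i, hi⟩ := IsAlgClosed.exists_pow_nat_eq (-1 : k) (n := 2) (by norm_num)
  exact ⟨i, by rw [← pow_two, hi]⟩

/-- **EIG, characteristic `≠ 2, 3`** -/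
theorem eig_ne3 [Finite G] (K : Kit N0 A E z s x r ψ)
    (ρ : ↥(centralizer ({z} : Set G)) →* (V ≃ₗ[k] V)) (hV : finrank k V = 16) (h2 : (2 : k) ≠ 0)
    (h3 : (3 : k) ≠ 0) (hz : z ∈ centralizer ({z} : Set G)) (hρz : ∀ v, ρ ⟨z, hz⟩ v = -v)
    (hE : ∀ e (he : e ∈ centralizer ({z} : Set G)), e ∈ E → ρ ⟨e, he⟩ = 1 → e = 1) : False := by
  obtain ⟨i, hi⟩ := exists_i (k := k) h2
  set R : ↥(centralizer ({z} : Set G)) →* (V →ₗ[k] V) :=
    (LinearEquiv.automorphismGroup.toLinearMapMonoidHom (R := k) (M := V)).comp ρ with hR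
  have hRρ : ∀ g v, R g v = ρ g v := fun g v => rfl
  have hRz : ∀ v, R ⟨z, hz⟩ v = -v := fun v => hρz v
  have hi' : (-i) * (-i) = -1 := by rw [neg_mul_neg, hi]
  obtain ⟨U, hU, hU2, -, hUd, hU1, -⟩ := decomp K R hV h2 hz hRz hi
  obtain ⟨W, hW, hW2, -, hWd, hW1, -⟩ := decomp K R hV h2 hz hRz hi'
  by_cases c1 : ∀ g, res (RE K R) U hU g = 1 → ψE K g = 1
  · exact contra3 hU2 h3 _ hUd (ψE K) c1 (ψE_img K)
  by_cases c2 : ∀ g, res (RE K R) W hW g = 1 → ψE K g = 1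
  · exact contra3 hW2 h3 _ hWd (ψE K) c2 (ψE_img K)
  push Not at c1 c2
  refine two_normal (ψE K) (ψE_img K) (ψE_even K) (res (RE K R) U hU).ker (res (RE K R) W hW).ker
    (MonoidHom.normal_ker _) (MonoidHom.normal_ker _) ?_ c1 c2
  intro a ha b hb
  have hcom : a * b * (b * a)⁻¹ = 1 := by
    have e1 : a * b * (b * a)⁻¹ ∈ (res (RE K R) U hU).ker := by
      have : a * b * (b * a)⁻¹ = a * (b * a⁻¹ * b⁻¹) := by group
      rw [this]
      exact mul_mem ha ((MonoidHom.normal_ker _).conj_mem _ (inv_mem ha) b)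
    have e2 : a * b * (b * a)⁻¹ ∈ (res (RE K R) W hW).ker := by
      have : a * b * (b * a)⁻¹ = (a * b * a⁻¹) * b⁻¹ := by group
      rw [this]
      exact mul_mem ((MonoidHom.normal_ker _).conj_mem _ hb a) (inv_mem hb)
    have e3 := triv_of K R h2 hz hRz hi _ (hU1 _ e1) (hW1 _ e2)
    refine Subtype.ext (hE _ (E_H K _ (SetLike.coe_mem _)) (SetLike.coe_mem _) ?_)
    ext v
    exact congrArg (fun f : V →ₗ[k] V => f v) e3
  exact mul_inv_eq_one.1 hcom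

/-! ### characteristic `≠ 5` -/

theorem pow5_mod {Γ : Type*} [Group Γ] {I : Γ} (hI : I ^ 4 = 1) (n : ℕ) : I ^ 5 ^ n = I := by
  have h : 5 ^ n % 4 = 1 := by rw [Nat.pow_mod]; norm_num
  rw [← Nat.div_add_mod (5 ^ n) 4, h, pow_succ, pow_mul, hI, one_pow, one_mul]

theorem sep {Γ : Type*} [CommGroup Γ] {u v a b : Γ} {n : ℕ} (hu : u ^ 5 ^ n = u) (hv : v ^ 5 ^ n = v)
    (ha : a ^ 5 ^ n = 1) (hb : b ^ 5 ^ n = 1) (h : u * a = v * b) : u = v ∧ a = b := by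
  have h1 := congrArg (fun g => g ^ 5 ^ n) h
  simp only [mul_pow, hu, hv, ha, hb, mul_one] at h1
  subst h1
  exact ⟨rfl, mul_left_cancel h⟩

theorem one_of_zpow {Γ : Type*} [Group Γ] {a : Γ} {n : ℕ} (ha : a ^ 5 ^ n = 1) {m : ℤ} (hm : m % 5 ≠ 0)
    (h : a ^ m = 1) : a = 1 := by
  obtain ⟨j, -, hj⟩ := (Nat.dvd_prime_pow Nat.prime_five).1 (orderOf_dvd_of_pow_eq_one ha)
  rcases j with _ | j
  · rw [pow_zero, orderOf_eq_one_iff] at hj
    exact hj
  · exfalso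
    have h1 : ((orderOf a : ℕ) : ℤ) ∣ m := orderOf_dvd_iff_zpow_eq_one.2 h
    rw [hj] at h1
    have h2 : (5 : ℤ) ∣ m := dvd_trans ⟨(5 : ℤ) ^ j, by push_cast; ring⟩ h1
    omega

/-- closure of the eigenvalues, abstractly -/
theorem alt {Γ : Type*} [CommGroup Γ] {I a b : Γ} {n : ℕ} (hI4 : I ^ 4 = 1) (hI2 : I ≠ I⁻¹) (ha : a ^ 5 ^ n = 1)
    (hb : b ^ 5 ^ n = 1) (e : ℤ) (h : (I * a) ^ e = I * a ∨ (I * a) ^ e = I * a⁻¹ ∨ (I * a) ^ e = I⁻¹ * b ∨
      (I * a) ^ e = I⁻¹ * b⁻¹) :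
    (e % 4 = 1 → a ^ e = a ∨ a ^ e = a⁻¹) ∧ (e % 4 = 3 → a ^ e = b ∨ a ^ e = b⁻¹) := by
  have hI4' : I ^ (4 : ℤ) = 1 := by exact_mod_cast hI4
  have hIe : I ^ e = I ^ (e % 4) := by
    conv_lhs => rw [← Int.emod_add_mul_ediv e 4, zpow_add, zpow_mul, hI4', one_zpow, mul_one]
  have p1 := pow5_mod hI4 n
  have p2 : (I⁻¹) ^ 5 ^ n = I⁻¹ := by rw [inv_pow, p1]
  have qa : (a⁻¹) ^ 5 ^ n = 1 := by rw [inv_pow, ha, inv_one]
  have qb : (b⁻¹) ^ 5 ^ n = 1 := by rw [inv_pow, hb, inv_one]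
  have qe : (a ^ e) ^ 5 ^ n = 1 := by rw [← zpow_natCast, ← zpow_mul, mul_comm, zpow_mul, zpow_natCast, ha, one_zpow]
  rw [mul_zpow] at h
  refine ⟨fun he => ?_, fun he => ?_⟩
  · rw [he, zpow_one] at hIe
    rw [hIe] at h
    rcases h with h | h | h | h
    · exact Or.inl (sep p1 p1 qe ha h).2
    · exact Or.inr (sep p1 p1 qe qa h).2
    · exact absurd (sep p1 p2 qe hb h).1 hI2
    · exact absurd (sep p1 p2 qe qb h).1 hI2
  · have hI3 : I ^ (3 : ℤ) = I⁻¹ := by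
      have : I ^ (3 : ℤ) * I = 1 := by rw [← zpow_add_one]; exact hI4'
      exact eq_inv_of_mul_eq_one_left this
    rw [he, hI3] at hIe
    rw [hIe] at h
    rcases h with h | h | h | h
    · exact absurd (sep p2 p1 qe ha h).1.symm hI2
    · exact absurd (sep p2 p1 qe qa h).1.symm hI2
    · exact Or.inl (sep p2 p2 qe hb h).2
    · exact Or.inr (sep p2 p2 qe qb h).2

omit [IsAlgClosed k] in
theorem diag_rel {U : Type*} [AddCommGroup U] [Module k U] (b : Basis (Fin 2) k U) {f : U →ₗ[k] U} {α β : k}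
    (h0 : f (b 0) = α • b 0) (h1 : f (b 1) = β • b 1) (u : U) : f (f u) = (α + β) • f u - (α * β) • u := by
  have h : f * f = (α + β) • f - (α * β) • (1 : U →ₗ[k] U) := by
    refine b.ext fun j => ?_
    rw [Module.End.mul_apply, LinearMap.sub_apply, LinearMap.smul_apply, LinearMap.smul_apply, Module.End.one_apply]
    have e0 : f (f (b 0)) = (α + β) • f (b 0) - (α * β) • b 0 := by
      rw [h0, map_smul, h0, smul_smul, smul_smul, ← sub_smul]
      congr 1; ring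
    have e1 : f (f (b 1)) = (α + β) • f (b 1) - (α * β) • b 1 := by
      rw [h1, map_smul, h1, smul_smul, smul_smul, ← sub_smul]
      congr 1; ring
    fin_cases j
    · exact e0
    · exact e1
  exact congrArg (fun g : U →ₗ[k] U => g u) h

theorem c5_one : c5 ^ 2 ≠ 1 := by decide

theorem odd1 : ∀ σ : Equiv.Perm (Fin 6), σ * c5 ^ 2 = c5 * σ → Equiv.Perm.sign σ = -1 := by decide +kernel

theorem odd4 : ∀ σ : Equiv.Perm (Fin 6), σ * c5 ^ 2 = c5 ^ 4 * σ → Equiv.Perm.sign σ = -1 := by decide +kernel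

theorem no_conj (σ : Equiv.Perm (Fin 6)) (hσ : Equiv.Perm.sign σ = 1) (m : ℤ) (hm : m % 5 = 0 ∨ m % 5 = 1 ∨ m % 5 = 4)
    (h : σ * c5 ^ 2 = c5 ^ m * σ) : False := by
  have h5 : c5 ^ (5 : ℤ) = 1 := by exact_mod_cast c5_pow
  have hme : c5 ^ m = c5 ^ (m % 5) := by
    conv_lhs => rw [← Int.emod_add_mul_ediv m 5, zpow_add, zpow_mul, h5, one_zpow, mul_one]
  rw [hme] at h
  rcases hm with hm | hm | hm
  · rw [hm, zpow_zero, one_mul] at h
    exact c5_one (by simpa using h)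
  · rw [hm, zpow_one] at h
    have := odd1 σ h
    rw [hσ] at this
    exact absurd this (by decide)
  · have h4 : c5 ^ (4 : ℤ) = c5 ^ 4 := by exact_mod_cast rfl
    rw [hm, h4] at h
    have := odd4 σ h
    rw [hσ] at this
    exact absurd this (by decide)

/-- a Sylow 5-subgroup containing `x` and a conjugate of `r x r⁻¹` -/
theorem exists_syl [Finite G] (K : Kit N0 A E z s x r ψ) (hrx : r * x * r⁻¹ ∈ E) :
    ∃ P : Sylow 5 ↥E, (⟨x, K.xE⟩ : ↥E) ∈ P ∧ ∃ e0 : ↥E, e0 * ⟨r * x * r⁻¹, hrx⟩ * e0⁻¹ ∈ P := by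
  have : Fact (Nat.Prime 5) := ⟨Nat.prime_five⟩
  obtain ⟨n, hn⟩ := K.x_five
  have pz : ∀ y : ↥E, y ^ 5 ^ n = 1 → ∃ P : Sylow 5 ↥E, y ∈ P := by
    intro y hy
    have h1 : IsPGroup 5 (zpowers y) := by
      rintro ⟨w, hw⟩
      obtain ⟨j, rfl⟩ := mem_zpowers_iff.1 hw
      refine ⟨n, Subtype.ext ?_⟩
      change (y ^ j) ^ 5 ^ n = 1
      rw [← zpow_natCast, ← zpow_mul, mul_comm, zpow_mul, zpow_natCast, hy, one_zpow]
    obtain ⟨P, hP⟩ := h1.exists_le_sylow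
    exact ⟨P, hP (mem_zpowers y)⟩
  obtain ⟨P, hP⟩ := pz ⟨x, K.xE⟩ (Subtype.ext hn)
  obtain ⟨Q, hQ⟩ := pz ⟨r * x * r⁻¹, hrx⟩ (Subtype.ext (by
    change (r * x * r⁻¹) ^ 5 ^ n = 1
    rw [conj_pow, hn, mul_one, mul_inv_cancel]))
  refine ⟨P, hP, ?_⟩
  obtain ⟨g, hg⟩ := MulAction.exists_smul_eq (↥E) Q P
  refine ⟨g, ?_⟩
  rw [← hg]
  have h2 : MulAut.conj g • (⟨r * x * r⁻¹, hrx⟩ : ↥E) ∈ MulAut.conj g • (Q : Subgroup ↥E) :=
    Subgroup.smul_mem_pointwise_smul _ _ _ hQ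
  rw [MulAut.smul_def, MulAut.conj_apply] at h2
  exact h2

/-- **EIG, characteristic `≠ 2, 5`** -/
theorem eig_ne5 [Finite G] (K : Kit N0 A E z s x r ψ)
    (ρ : ↥(centralizer ({z} : Set G)) →* (V ≃ₗ[k] V)) (hV : finrank k V = 16) (h2 : (2 : k) ≠ 0)
    (h5 : (5 : k) ≠ 0) (hz : z ∈ centralizer ({z} : Set G)) (hρz : ∀ v, ρ ⟨z, hz⟩ v = -v)
    (hE : ∀ e (he : e ∈ centralizer ({z} : Set G)), e ∈ E → ρ ⟨e, he⟩ = 1 → e = 1)
    (e : ℤ) (he : (e % 4 = 1 ∧ e % 5 ≠ 1 ∧ e % 5 ≠ 4) ∨ (e % 4 = 3 ∧ e % 5 ≠ 2 ∧ e % 5 ≠ 3))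
    (hself : ∀ g : ↥(centralizer ({z} : Set G)), (∃ m : ℕ, (g : G) ^ m = z) → ((orderOf g : ℕ) : k) ≠ 0 →
      ∀ l : k, Module.End.HasEigenvalue ((ρ g : V ≃ₗ[k] V) : V →ₗ[k] V) l →
        Module.End.HasEigenvalue ((ρ g : V ≃ₗ[k] V) : V →ₗ[k] V) (l ^ e)) : False := by
  have : Fact (Nat.Prime 5) := ⟨Nat.prime_five⟩
  obtain ⟨i, hi⟩ := exists_i (k := k) h2
  set R : ↥(centralizer ({z} : Set G)) →* (V →ₗ[k] V) :=
    (LinearEquiv.automorphismGroup.toLinearMapMonoidHom (R := k) (M := V)).comp ρ with hR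
  have hRρ : ∀ g v, R g v = ρ g v := fun g v => rfl
  have hRz : ∀ v, R ⟨z, hz⟩ v = -v := fun v => hρz v
  have hi' : (-i) * (-i) = -1 := by rw [neg_mul_neg, hi]
  have hi0 : i ≠ 0 := by
    rintro rfl
    rw [mul_zero] at hi
    exact absurd hi (by simp)
  obtain ⟨U, hU, hU2, hUs, hUd, hU1, hUe⟩ := decomp K R hV h2 hz hRz hi
  obtain ⟨W, hW, hW2, hWs, hWd, hW1, hWe⟩ := decomp K R hV h2 hz hRz hi'
  -- faithfulness
  have faith : ∀ g : ↥E, res (RE K R) U hU g = 1 → res (RE K R) W hW g = 1 → g = 1 := by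
    intro g hg1 hg2
    have e3 := triv_of K R h2 hz hRz hi g (hU1 g hg1) (hW1 g hg2)
    refine Subtype.ext (hE _ (E_H K _ (SetLike.coe_mem _)) (SetLike.coe_mem _) ?_)
    ext v
    exact congrArg (fun f : V →ₗ[k] V => f v) e3
  -- the Sylow subgroup
  have hrx : r * x * r⁻¹ ∈ E := ((mem_normalizer_iff.1 K.rE) x).1 K.xE
  obtain ⟨P, hxP, e0, hxP'⟩ := exists_syl K hrx
  obtain ⟨n, hn⟩ := IsPGroup.iff_card.1 P.isPGroup'
  have hpow : ∀ g : ↥(P : Subgroup ↥E), g ^ 5 ^ n = 1 := fun g => by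
    rw [← hn]; exact pow_card_eq_one'
  obtain ⟨b, lam, hlam⟩ := pgroup_diag hU2 (p := 5) (by norm_num) (by exact_mod_cast h5) P.isPGroup'
    ((res (RE K R) U hU).comp (P : Subgroup ↥E).subtype) (fun g => hUd _)
  obtain ⟨c, mu, hmu⟩ := pgroup_diag hW2 (p := 5) (by norm_num) (by exact_mod_cast h5) P.isPGroup'
    ((res (RE K R) W hW).comp (P : Subgroup ↥E).subtype) (fun g => hWd _)
  have lpow : ∀ g, lam g ^ 5 ^ n = 1 := fun g => by rw [← map_pow, hpow, map_one]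
  have mpow : ∀ g, mu g ^ 5 ^ n = 1 := fun g => by rw [← map_pow, hpow, map_one]
  have b0 : ((b 0 : ↥U) : V) ≠ 0 := fun h => b.ne_zero 0 (Subtype.ext h)
  have c0 : ((c 0 : ↥W) : V) ≠ 0 := fun h => c.ne_zero 0 (Subtype.ext h)
  have hlb : ∀ g : ↥(P : Subgroup ↥E), RE K R g (b 0 : V) = (lam g : k) • (b 0 : V) := fun g =>
    congrArg (fun u : ↥U => (u : V)) (hlam g).1
  have hmc : ∀ g : ↥(P : Subgroup ↥E), RE K R g (c 0 : V) = (mu g : k) • (c 0 : V) := fun g =>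
    congrArg (fun u : ↥W => (u : V)) (hmu g).1
  -- eigenvalues of `g` on the two halves
  have claimU : ∀ g : ↥(P : Subgroup ↥E), ∀ v, v ≠ 0 → R ⟨s, s_H K⟩ v = i • v → ∀ m : k,
      RE K R (g : ↥E) v = m • v → m = lam g ∨ m = (((lam g)⁻¹ : kˣ) : k) := by
    intro g
    refine hUe g _ _ fun u hu => ?_
    exact congrArg (fun u : ↥U => (u : V)) (diag_rel b (hlam g).1 (hlam g).2 ⟨u, hu⟩)
  have claimW : ∀ g : ↥(P : Subgroup ↥E), ∀ v, v ≠ 0 → R ⟨s, s_H K⟩ v = (-i) • v → ∀ m : k,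
      RE K R (g : ↥E) v = m • v → m = mu g ∨ m = (((mu g)⁻¹ : kˣ) : k) := by
    intro g
    refine hWe g _ _ fun u hu => ?_
    exact congrArg (fun u : ↥W => (u : V)) (diag_rel c (hmu g).1 (hmu g).2 ⟨u, hu⟩)
  -- the element `s g`
  let sg : ↥(P : Subgroup ↥E) → ↥(centralizer ({z} : Set G)) := fun g =>
    ⟨s, s_H K⟩ * ⟨((g : ↥E) : G), E_H K _ (g : ↥E).2⟩
  have hsg : ∀ g v, R (sg g) v = R ⟨s, s_H K⟩ (RE K R (g : ↥E) v) := by
    intro g v
    change R (_ * _) v = _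
    rw [map_mul]
    rfl
  have hsg' : ∀ g v, R (sg g) v = RE K R (g : ↥E) (R ⟨s, s_H K⟩ v) := by
    intro g v
    rw [hsg]
    exact (RE_comm K R g s K.sN v).symm
  have hSS : ∀ v, R ⟨s, s_H K⟩ (R ⟨s, s_H K⟩ v) = -v := by
    intro v
    rw [R_mul R (s_H K) (s_H K) hz K.s_sq, hRz]
  have hIinv : i⁻¹ = -i := by
    rw [inv_eq_iff_eq_inv]
    exact eq_inv_of_mul_eq_one_left (by rw [mul_neg, hi, neg_neg])
  let I : kˣ := Units.mk0 i hi0
  have hI : (I : k) = i := rfl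
  have hI' : ((I⁻¹ : kˣ) : k) = -i := by rw [Units.val_inv_eq_inv_val, hI, hIinv]
  have hI4 : I ^ 4 = 1 := by
    apply Units.ext
    rw [Units.val_pow_eq_pow_val, hI, show 4 = 2 * 2 by norm_num, pow_mul, pow_two i, hi]
    norm_num
  have hI2 : I ≠ I⁻¹ := by
    intro h
    have h1 : i = -i := by rw [← hI', ← h, hI]
    have h3 : (2 : k) * i = 0 := by rw [two_mul]; nth_rewrite 1 [h1]; exact neg_add_cancel i
    exact (mul_ne_zero h2 hi0) h3
  -- the eigenvalues of `s g`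
  have claimE : ∀ g : ↥(P : Subgroup ↥E), ∀ l : kˣ, Module.End.HasEigenvalue (R (sg g)) (l : k) →
      l = I * lam g ∨ l = I * (lam g)⁻¹ ∨ l = I⁻¹ * mu g ∨ l = I⁻¹ * (mu g)⁻¹ := by
    intro g l hl
    obtain ⟨v, hv⟩ := hl.exists_hasEigenvector
    have hv1 : R (sg g) v = (l : k) • v := hv.apply_eq_smul
    have hv0 : v ≠ 0 := hv.2
    -- the projections
    have hp : ∀ ε : k, ε * ε = -1 → R ⟨s, s_H K⟩ (R ⟨s, s_H K⟩ v + ε • v) = ε • (R ⟨s, s_H K⟩ v + ε • v) := by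
      intro ε hε
      rw [map_add, hSS, map_smul, smul_add, smul_smul, hε, neg_one_smul, add_comm]
    have hq : ∀ ε : k, ε * ε = -1 → RE K R (g : ↥E) (R ⟨s, s_H K⟩ v + ε • v) =
        (-ε * l) • (R ⟨s, s_H K⟩ v + ε • v) := by
      intro ε hε
      have h3 : R (sg g) (R ⟨s, s_H K⟩ v + ε • v) = (l : k) • (R ⟨s, s_H K⟩ v + ε • v) := by
        rw [map_add, map_smul, hv1, hsg', hSS, smul_add, smul_comm ε]
        congr 1
        rw [map_neg]
        have h4 : RE K R (g : ↥E) v = -R ⟨s, s_H K⟩ (R (sg g) v) := by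
          rw [hsg, hSS, neg_neg]
        rw [h4, hv1, map_smul, neg_neg]
      rw [hsg', hp ε hε, map_smul] at h3
      have h4 : (ε * -ε) • RE K R (g : ↥E) (R ⟨s, s_H K⟩ v + ε • v) = RE K R (g : ↥E) (R ⟨s, s_H K⟩ v + ε • v) := by
        rw [mul_neg, hε, neg_neg, one_smul]
      rw [← h4, mul_comm, ← smul_smul, h3, smul_smul]
    by_cases hc1 : R ⟨s, s_H K⟩ v + i • v = 0
    · have hc2 : R ⟨s, s_H K⟩ v + (-i) • v ≠ 0 := by
        intro hc2
        have h6 : (2 * i) • v = R ⟨s, s_H K⟩ v + i • v - (R ⟨s, s_H K⟩ v + (-i) • v) := by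
          rw [two_mul, add_smul, neg_smul]
          abel
        rw [hc1, hc2, sub_zero] at h6
        exact hv0 ((smul_eq_zero.1 h6).resolve_left (mul_ne_zero h2 hi0))
      have h8 := claimW g _ hc2 (hp (-i) hi') _ (hq (-i) hi')
      have h9 : (- -i * (l : k)) = ((I * l : kˣ) : k) := by rw [neg_neg, Units.val_mul, hI]
      rw [h9] at h8
      right; right
      rcases h8 with h8 | h8
      · left
        rw [← Units.ext h8]; group
      · right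
        rw [← Units.ext h8]; group
    · have h8 := claimU g _ hc1 (hp i hi) _ (hq i hi)
      have h9 : (-i * (l : k)) = ((I⁻¹ * l : kˣ) : k) := by rw [Units.val_mul, hI']
      rw [h9] at h8
      rcases h8 with h8 | h8
      · left
        rw [← Units.ext h8]; group
      · right; left
        rw [← Units.ext h8]; group
  have hlm : ∀ g, Module.End.HasEigenvalue (R (sg g)) ((I * lam g : kˣ) : k) := by
    intro g
    refine Module.End.hasEigenvalue_of_hasEigenvector (x := (b 0 : V)) ⟨?_, b0⟩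
    rw [Module.End.mem_eigenspace_iff, hsg, hlb, map_smul, hUs _ (b 0).2, smul_smul, Units.val_mul, mul_comm, hI]
  have hmm : ∀ g, Module.End.HasEigenvalue (R (sg g)) ((I⁻¹ * mu g : kˣ) : k) := by
    intro g
    refine Module.End.hasEigenvalue_of_hasEigenvector (x := (c 0 : V)) ⟨?_, c0⟩
    rw [Module.End.mem_eigenspace_iff, hsg, hmc, map_smul, hWs _ (c 0).2, smul_smul, Units.val_mul, mul_comm, hI']
  -- powers of `s g`
  have hcsg : ∀ g : ↥(P : Subgroup ↥E), Commute s ((g : ↥E) : G) := fun g => (K.E_comm _ (g : ↥E).2 s K.sN).symm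
  have hg5 : ∀ g : ↥(P : Subgroup ↥E), ((g : ↥E) : G) ^ 5 ^ n = 1 := by
    intro g
    have := congrArg (fun g : ↥(P : Subgroup ↥E) => ((g : ↥E) : G)) (hpow g)
    simpa using this
  have hz5 : z ^ 5 ^ n = z := pow5_mod (by
    rw [show 4 = 2 * 2 by norm_num, pow_mul, pow_two z, K.z_sq, one_pow]) n
  have hs1 : ∀ g, ((sg g : ↥(centralizer ({z} : Set G))) : G) ^ (2 * 5 ^ n) = z := by
    intro g
    change (s * ((g : ↥E) : G)) ^ (2 * 5 ^ n) = z
    rw [(hcsg g).mul_pow, pow_mul s, pow_two s, K.s_sq, hz5, mul_comm 2, pow_mul, hg5, one_pow, mul_one]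
  have hs2 : ∀ g, ((orderOf (sg g) : ℕ) : k) ≠ 0 := by
    intro g
    have h6 : (sg g) ^ (4 * 5 ^ n) = 1 := by
      apply Subtype.ext
      change ((sg g : ↥(centralizer ({z} : Set G))) : G) ^ (4 * 5 ^ n) = 1
      rw [show 4 * 5 ^ n = (2 * 5 ^ n) * 2 by ring, pow_mul, hs1, pow_two, K.z_sq]
    obtain ⟨j, hj⟩ := orderOf_dvd_of_pow_eq_one h6
    intro h7
    have h8 : ((4 * 5 ^ n : ℕ) : k) = 0 := by rw [hj, Nat.cast_mul, h7, zero_mul]
    push_cast at h8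
    have h9 : (4 : k) = 2 * 2 := by norm_num
    rw [h9] at h8
    exact (mul_ne_zero (mul_ne_zero h2 h2) (pow_ne_zero n h5)) h8
  have hcl : ∀ g, ∀ l : kˣ, Module.End.HasEigenvalue (R (sg g)) (l : k) →
      l ^ e = I * lam g ∨ l ^ e = I * (lam g)⁻¹ ∨ l ^ e = I⁻¹ * mu g ∨ l ^ e = I⁻¹ * (mu g)⁻¹ := by
    intro g l hl
    refine claimE g (l ^ e) ?_
    rw [Units.val_zpow_eq_zpow_val]
    exact hself (sg g) ⟨_, hs1 g⟩ (hs2 g) l hl
  have hA : ∀ g, (e % 4 = 1 → lam g ^ e = lam g ∨ lam g ^ e = (lam g)⁻¹) ∧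
      (e % 4 = 3 → lam g ^ e = mu g ∨ lam g ^ e = (mu g)⁻¹) := fun g =>
    alt hI4 hI2 (lpow g) (mpow g) e (hcl g _ (hlm g))
  have hB : ∀ g, (e % 4 = 1 → mu g ^ e = mu g ∨ mu g ^ e = (mu g)⁻¹) ∧
      (e % 4 = 3 → mu g ^ e = lam g ∨ mu g ^ e = (lam g)⁻¹) := fun g => by
    refine alt (I := I⁻¹) (by rw [inv_pow, hI4, inv_one]) (by rw [inv_inv]; exact hI2.symm) (mpow g) (lpow g) e ?_
    rw [inv_inv]
    rcases hcl g _ (hmm g) with h | h | h | h
    · exact Or.inr (Or.inr (Or.inl h))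
    · exact Or.inr (Or.inr (Or.inr h))
    · exact Or.inl h
    · exact Or.inr (Or.inl h)
  have hone : ∀ g, lam g = 1 → mu g = 1 → (g : ↥E) = 1 := fun g h3 h4 =>
    faith g (eq_one_of_lam b (hlam g).1 (hlam g).2 h3) (eq_one_of_lam c (hmu g).1 (hmu g).2 h4)
  have hψx : ψE K ⟨x, K.xE⟩ = c5 := K.psi_x (K.E_A K.xE)
  rcases he with ⟨he4, he1, he2⟩ | ⟨he4, he1, he2⟩
  · -- `e ≡ 1 mod 4`
    have h3 : ∀ a : kˣ, a ^ 5 ^ n = 1 → a ^ e = a ∨ a ^ e = a⁻¹ → a = 1 := by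
      intro a ha h
      rcases h with h | h
      · refine one_of_zpow ha (m := e - 1) (by omega) ?_
        rw [zpow_sub_one, h, mul_inv_cancel]
      · refine one_of_zpow ha (m := e + 1) (by omega) ?_
        rw [zpow_add_one, h, inv_mul_cancel]
    have h6 := hone ⟨⟨x, K.xE⟩, hxP⟩ (h3 _ (lpow _) ((hA _).1 he4)) (h3 _ (mpow _) ((hB _).1 he4))
    have h7 : ψE K ⟨x, K.xE⟩ = 1 := by
      have h8 : (⟨x, K.xE⟩ : ↥E) = 1 := h6
      rw [h8, map_one]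
    rw [hψx] at h7
    exact c5_ne h7
  · -- `e ≡ 3 mod 4`
    set gx : ↥(P : Subgroup ↥E) := ⟨⟨x, K.xE⟩, hxP⟩ with hgx
    set gy : ↥(P : Subgroup ↥E) := ⟨e0 * ⟨r * x * r⁻¹, hrx⟩ * e0⁻¹, hxP'⟩ with hgy
    have hr' : (e0 : G) * r ∈ centralizer ({z} : Set G) := mul_mem (E_H K _ e0.2) (r_H K)
    -- the vector
    have hv0 : R ⟨(e0 : G) * r, hr'⟩ (b 0 : V) ≠ 0 := by
      intro h
      exact b0 (R_inj R _ (by rw [h, map_zero]))
    have hv1 : R ⟨s, s_H K⟩ (R ⟨(e0 : G) * r, hr'⟩ (b 0 : V)) = (-i) • R ⟨(e0 : G) * r, hr'⟩ (b 0 : V) := by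
      rw [R_anti R (s_H K) hr' hz hRz (by
        rw [← mul_assoc s, ← K.E_comm _ e0.2 s K.sN, mul_assoc, s_r K, K.s_inv, ← mul_assoc, ← mul_assoc,
          mem_H.1 hr', mul_assoc z]), hUs _ (b 0).2, map_smul, neg_smul]
    have hv2 : RE K R (gy : ↥E) (R ⟨(e0 : G) * r, hr'⟩ (b 0 : V)) = (lam gx : k) • R ⟨(e0 : G) * r, hr'⟩ (b 0 : V) := by
      rw [← map_smul, ← hlb gx, RE_apply, RE_apply]
      rw [R_mul R _ hr' (mul_mem hr' (E_H K x K.xE)) (by
        change (e0 : G) * (r * x * r⁻¹) * (e0 : G)⁻¹ * ((e0 : G) * r) = (e0 : G) * r * x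
        group), R_mul R hr' _ _ rfl]
    have h6 := claimW gy _ hv0 hv1 _ hv2
    have h7 : lam gx = mu gy ∨ lam gx = (mu gy)⁻¹ := h6.imp (fun h => Units.ext h) (fun h => Units.ext h)
    have h8 : ∃ m : ℤ, (m = e ∨ m = -e) ∧ lam gy = lam gx ^ m := by
      rcases h7 with h7 | h7 <;> rcases (hB gy).2 he4 with h9 | h9
      · exact ⟨e, Or.inl rfl, by rw [h7, h9]⟩
      · exact ⟨-e, Or.inr rfl, by rw [h7, zpow_neg, h9, inv_inv]⟩
      · exact ⟨-e, Or.inr rfl, by rw [h7, inv_zpow, zpow_neg, inv_inv, h9]⟩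
      · exact ⟨e, Or.inl rfl, by rw [h7, inv_zpow, h9, inv_inv]⟩
    obtain ⟨m, hm, hlm'⟩ := h8
    have h9 : lam (gy * gx ^ (-m)) = 1 := by
      rw [map_mul, map_zpow, zpow_neg, ← hlm', mul_inv_cancel]
    have h10 : mu (gy * gx ^ (-m)) = 1 := by
      rcases (hA (gy * gx ^ (-m))).2 he4 with h | h
      · rw [← h, h9, one_zpow]
      · rw [← inv_eq_one, ← h, h9, one_zpow]
    have h11 := hone _ h9 h10
    have h12 : (gy : ↥E) = (gx : ↥E) ^ m := by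
      have h13 : (gy : ↥E) * (gx : ↥E) ^ (-m) = 1 := h11
      rw [zpow_neg] at h13
      exact mul_inv_eq_one.1 h13
    have h13 : ψE K gy = c5 ^ m := by
      rw [h12, map_zpow]
      congr 1
    have h14 : ψE K gy = ψE K e0 * c5 ^ 2 * (ψE K e0)⁻¹ := by
      have h15 : ψE K ⟨r * x * r⁻¹, hrx⟩ = c5 ^ 2 := K.psi_r (K.E_A hrx)
      rw [← h15, ← map_inv, ← map_mul, ← map_mul]
    have h16 : m % 5 = 0 ∨ m % 5 = 1 ∨ m % 5 = 4 := by
      have h17 : e % 5 = 0 ∨ e % 5 = 1 ∨ e % 5 = 4 := by omega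
      rcases hm with hm | hm <;> rcases h17 with h17 | h17 | h17 <;> omega
    refine no_conj (ψE K e0) (ψE_even K e0) m h16 ?_
    rw [← h13, h14]
    group

end Cfsg.Agent.H858.Co3
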