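import Cfsg.Agent.H415.C3.Kit

/-!
# S1920, EIG: generators of `N0 = 4 ∘ 2^{1+4}` (helper858)

`kit_gens` : `a, b, c, d ∈ N0` with `a² = c² = 1`, `[a,b] = [c,d] = z`, the other pairs commute.
-/

set_option autoImplicit false

open Subgroup

namespace Cfsg.Agent.H858.Co3

open Cfsg.Agent.H415.C3

variable {G : Type*} [Group G] {N0 A E : Subgroup G} {z s x r : G} {ψ : ↥A →* Equiv.Perm (Fin 6)}

/-- a coset of `⟨s⟩` contains an involution -/
theorem kit_sq (K : Kit N0 A E z s x r ψ) {n : G} (hn : n ∈ N0) :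
    ∃ m ∈ N0, m * m = 1 ∧ (m = n ∨ m = n * s) := by
  rcases K.sq n hn with h | h
  · exact ⟨n, hn, h, Or.inl rfl⟩
  · refine ⟨n * s, mul_mem hn K.sN, ?_, Or.inr rfl⟩
    calc n * s * (n * s) = n * (s * n) * s := by group
      _ = n * (n * s) * s := by rw [K.s_cen n hn]
      _ = (n * n) * (s * s) := by group
      _ = 1 := by rw [h, K.s_sq, K.z_sq]

theorem kit_ns (K : Kit N0 A E z s x r ψ) {n : G} {m : G} (hm : m ∈ N0) (h : n * m ≠ m * n) :
    (n * s) * m ≠ m * (n * s) := by
  intro h1
  apply h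
  have h2 : (n * s) * m = n * m * s := by rw [mul_assoc, ← K.s_cen m hm]; group
  rw [h2, ← mul_assoc] at h1
  exact mul_right_cancel h1

theorem kit_cs (K : Kit N0 A E z s x r ψ) {n : G} {m : G} (hm : m ∈ N0) (h : m * n = n * m) :
    m * (n * s) = (n * s) * m := by
  calc m * (n * s) = (m * n) * s := by group
    _ = n * (m * s) := by rw [h]; group
    _ = n * s * m := by rw [K.s_cen m hm]; group

/-- product of two elements not commuting with `b` -/
theorem kit_mul (K : Kit N0 A E z s x r ψ) {n a b : G} (hn : n ∈ N0) (ha : a ∈ N0) (hb : b ∈ N0)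
    (h1 : n * b ≠ b * n) (h2 : a * b ≠ b * a) : (n * a) * b = b * (n * a) := by
  have e1 := (K.comm n hn b hb).resolve_left h1
  have e2 := (K.comm a ha b hb).resolve_left h2
  have hz := K.z_comm (K.N_A hn)
  calc (n * a) * b = n * (a * b) := by group
    _ = (n * z) * (b * a) := by rw [e2]; group
    _ = z * (n * b) * a := by rw [hz]; group
    _ = (z * z) * (b * (n * a)) := by rw [e1]; group
    _ = b * (n * a) := by rw [K.z_sq, one_mul]

theorem card_s_le [Finite G] (K : Kit N0 A E z s x r ψ) : Nat.card (zpowers s) ≤ 4 := by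
  rw [Nat.card_zpowers]
  exact Nat.le_of_dvd (by norm_num) (orderOf_dvd_of_pow_eq_one K.s_four)

/-- **generators** -/
theorem kit_gens [Finite G] (K : Kit N0 A E z s x r ψ) : ∃ a ∈ N0, ∃ b ∈ N0, ∃ c ∈ N0, ∃ d ∈ N0,
    a * a = 1 ∧ c * c = 1 ∧ a * b = z * (b * a) ∧ c * d = z * (d * c) ∧ a * c = c * a ∧ a * d = d * a ∧
    b * c = c * b ∧ b * d = d * b := by
  -- `a`, `b`
  have h1 : ∃ a0 ∈ N0, ∃ b ∈ N0, a0 * b ≠ b * a0 := by
    by_contra hcon
    push Not at hcon
    have h2 : N0 ≤ zpowers s := fun n hn => K.cen n hn fun m hm => hcon n hn m hm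
    have h3 := Subgroup.card_le_of_le h2
    rw [K.card] at h3
    have := card_s_le K
    omega
  obtain ⟨a0, ha0, b, hb, hab⟩ := h1
  obtain ⟨a, ha, haa, hae⟩ := kit_sq K ha0
  have hab' : a * b ≠ b * a := by
    rcases hae with rfl | rfl
    · exact hab
    · exact kit_ns K hb hab
  -- adjusting
  have hadj : ∀ n ∈ N0, ∃ i : Fin 4, (n * (![1, a, b, a * b] i)) ∈ N0 ∧
      (n * (![1, a, b, a * b] i)) * a = a * (n * (![1, a, b, a * b] i)) ∧
      (n * (![1, a, b, a * b] i)) * b = b * (n * (![1, a, b, a * b] i)) := by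
    intro n hn
    by_cases h1 : n * b = b * n
    · by_cases h2 : n * a = a * n
      · refine ⟨0, ?_, ?_, ?_⟩
        · simpa using hn
        · simpa using h2
        · simpa using h1
      · refine ⟨2, ?_, ?_, ?_⟩
        · simpa using mul_mem hn hb
        · simpa using kit_mul K hn hb ha h2 (fun h => hab' h.symm)
        · change (n * b) * b = b * (n * b)
          rw [← mul_assoc, ← h1]
    · have h1' := kit_mul K hn ha hb h1 hab'
      by_cases h2 : (n * a) * a = a * (n * a)
      · refine ⟨1, ?_, ?_, ?_⟩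
        · simpa using mul_mem hn ha
        · simpa using h2
        · simpa using h1'
      · have h3 := kit_mul K (mul_mem hn ha) hb ha h2 (fun h => hab' h.symm)
        refine ⟨3, ?_, ?_, ?_⟩
        · change n * (a * b) ∈ N0
          exact mul_mem hn (mul_mem ha hb)
        · change (n * (a * b)) * a = a * (n * (a * b))
          rw [← mul_assoc n]; exact h3
        · change (n * (a * b)) * b = b * (n * (a * b))
          rw [← mul_assoc n, ← mul_assoc b, ← h1']
  -- `c`, `d`
  have h5 : ∃ c0 ∈ N0, ∃ d ∈ N0, c0 * a = a * c0 ∧ c0 * b = b * c0 ∧ d * a = a * d ∧ d * b = b * d ∧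
      c0 * d ≠ d * c0 := by
    by_contra hcon
    push Not at hcon
    have hcom : ∀ p, p ∈ N0 → p * a = a * p → p * b = b * p → p ∈ zpowers s := by
      intro p hp hpa hpb
      refine K.cen p hp fun n hn => ?_
      obtain ⟨i, hi, hia, hib⟩ := hadj n hn
      have h6 := hcon p hp _ hi hpa hpb hia hib
      have h7 : p * (![1, a, b, a * b] i) = (![1, a, b, a * b] i) * p := by
        fin_cases i
        · simp
        · exact hpa
        · exact hpb
        · change p * (a * b) = (a * b) * p
          rw [← mul_assoc, hpa, mul_assoc, hpb, mul_assoc]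
      have h8 : p * n * (![1, a, b, a * b] i) = n * p * (![1, a, b, a * b] i) := by
        rw [mul_assoc, h6, mul_assoc n p, h7, mul_assoc]
      exact mul_right_cancel h8
    choose F hF using hadj
    let f : ↥N0 → ↥(zpowers s) × Fin 4 := fun n =>
      (⟨n * (![1, a, b, a * b] (F n n.2)), hcom _ (hF n n.2).1 (hF n n.2).2.1 (hF n n.2).2.2⟩, F n n.2)
    have hf : Function.Injective f := by
      intro n m hnm
      have h6 : F n n.2 = F m m.2 := congrArg Prod.snd hnm
      have h7 : (n : G) * (![1, a, b, a * b] (F n n.2)) = m * (![1, a, b, a * b] (F m m.2)) :=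
        congrArg (fun p => ((p.1 : ↥(zpowers s)) : G)) hnm
      rw [h6] at h7
      exact Subtype.ext (mul_right_cancel h7)
    have h6 := Nat.card_le_card_of_injective f hf
    rw [Nat.card_prod, K.card, Nat.card_eq_fintype_card (α := Fin 4), Fintype.card_fin] at h6
    have := card_s_le K
    omega
  obtain ⟨c0, hc0, d, hd, hca, hcb, hda, hdb, hcd⟩ := h5
  obtain ⟨c, hc, hcc, hce⟩ := kit_sq K hc0
  have hcd' : c * d ≠ d * c := by
    rcases hce with rfl | rfl
    · exact hcd
    · exact kit_ns K hd hcd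
  have hac : a * c = c * a := by
    rcases hce with rfl | rfl
    · exact hca.symm
    · exact kit_cs K ha hca.symm
  have hbc : b * c = c * b := by
    rcases hce with rfl | rfl
    · exact hcb.symm
    · exact kit_cs K hb hcb.symm
  exact ⟨a, ha, b, hb, c, hc, d, hd, haa, hcc, (K.comm a ha b hb).resolve_left hab',
    (K.comm c hc d hd).resolve_left hcd', hac, hda.symm, hbc, hdb.symm⟩

end Cfsg.Agent.H858.Co3
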