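import Mathlib

/-!
# S1920, EIG: linear algebra (helper858)

* `det_upper` : determinant of a triangular endomorphism of a plane;
* `elem_diag` : an element of finite odd order prime to the characteristic of `SL(M)`, `dim M = 2`, is `diag(ω, ω⁻¹)`;
* `pgroup_diag` : a finite `p`-group (`p` odd, not the characteristic) in `SL(M)` is `diag(lam, lam⁻¹)`;
* `half`, `half_ext` : halving by an anticommuting pair.
-/

set_option autoImplicit false

open Subgroup Module

namespace Cfsg.Agent.H858.Co3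

section plane

variable {k M : Type*} [Field k] [AddCommGroup M] [Module k M]

/-- determinant of a triangular endomorphism -/
theorem det_upper (b : Basis (Fin 2) k M) (f : M →ₗ[k] M) {α β δ : k} (h0 : f (b 0) = α • b 0)
    (h1 : f (b 1) = β • b 0 + δ • b 1) : LinearMap.det f = α * δ := by
  rw [← LinearMap.det_toMatrix b, Matrix.det_fin_two]
  simp only [LinearMap.toMatrix_apply, h0, h1, map_add, map_smul, Basis.repr_self, Finsupp.add_apply,
    Finsupp.smul_apply, smul_eq_mul]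
  simp

/-- a basis starting with a given nonzero vector -/
theorem exists_basis (hM : finrank k M = 2) {u : M} (hu : u ≠ 0) : ∃ b : Basis (Fin 2) k M, b 0 = u := by
  have hfin : FiniteDimensional k M := FiniteDimensional.of_finrank_pos (by omega)
  -- a vector outside the line
  have h1 : ∃ w : M, w ∉ Submodule.span k {u} := by
    by_contra hcon
    push Not at hcon
    have h2 : Submodule.span k {u} = ⊤ := by
      rw [eq_top_iff]
      intro w _
      exact hcon w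
    have h3 := finrank_span_singleton (K := k) hu
    rw [h2, finrank_top, hM] at h3
    omega
  obtain ⟨w, hw⟩ := h1
  have hli : LinearIndependent k ![u, w] := by
    rw [LinearIndependent.pair_iff]
    intro a c hac
    have hc : c = 0 := by
      by_contra hc
      apply hw
      rw [Submodule.mem_span_singleton]
      refine ⟨-(c⁻¹ * a), ?_⟩
      have h4 : c • w = -(a • u) := by
        rw [eq_neg_iff_add_eq_zero, add_comm]; exact hac
      have h5 : w = c⁻¹ • (c • w) := by rw [smul_smul, inv_mul_cancel₀ hc, one_smul]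
      rw [h5, h4, smul_neg, smul_smul, neg_smul]
    rw [hc, zero_smul, add_zero] at hac
    exact ⟨(smul_eq_zero.1 hac).resolve_right hu, hc⟩
  let b := basisOfLinearIndependentOfCardEqFinrank hli (by rw [hM]; rfl)
  exact ⟨b, by simp [b]⟩

/-- coordinates -/
theorem exists_coord (b : Basis (Fin 2) k M) (v : M) : ∃ x y : k, v = x • b 0 + y • b 1 := by
  refine ⟨b.repr v 0, b.repr v 1, ?_⟩
  conv_lhs => rw [← b.sum_repr v, Fin.sum_univ_two]

theorem coord_inj (b : Basis (Fin 2) k M) {x y x' y' : k} (h : x • b 0 + y • b 1 = x' • b 0 + y' • b 1) :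
    x = x' ∧ y = y' := by
  have h0 := congrArg (fun v => b.repr v 0) h
  have h1 := congrArg (fun v => b.repr v 1) h
  simp at h0 h1
  exact ⟨h0, h1⟩

theorem pow_apply_smul (f : M →ₗ[k] M) {u : M} {ω : k} (h : f u = ω • u) (n : ℕ) : (f ^ n) u = ω ^ n • u := by
  induction n with
  | zero => simp
  | succ n ih => rw [pow_succ, Module.End.mul_apply, h, map_smul, ih, smul_smul, mul_comm, pow_succ]

/-- **an element of odd order prime to the characteristic** -/
theorem elem_diag [IsAlgClosed k] (hM : finrank k M = 2) (f : M →ₗ[k] M) {n : ℕ} (hn : Odd n) (hnk : (n : k) ≠ 0)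
    (hf : f ^ n = 1) (hdet : LinearMap.det f = 1) (hf1 : f ≠ 1) :
    ∃ b : Basis (Fin 2) k M, ∃ ω : k, ω ≠ 0 ∧ ω ≠ ω⁻¹ ∧ f (b 0) = ω • b 0 ∧ f (b 1) = ω⁻¹ • b 1 := by
  have hfin : FiniteDimensional k M := FiniteDimensional.of_finrank_pos (by omega)
  have hnt : Nontrivial M := Module.nontrivial_of_finrank_pos (R := k) (by omega)
  obtain ⟨ω, hω⟩ := Module.End.exists_eigenvalue f
  obtain ⟨u, hu⟩ := hω.exists_hasEigenvector
  have hfu : f u = ω • u := hu.apply_eq_smul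
  have hu0 : u ≠ 0 := hu.2
  obtain ⟨b, rfl⟩ := exists_basis hM hu0
  obtain ⟨β, δ, hβ⟩ := exists_coord b (f (b 1))
  have hωδ : ω * δ = 1 := by rw [← hdet]; exact (det_upper b f hfu hβ).symm
  have hω0 : ω ≠ 0 := left_ne_zero_of_mul_eq_one hωδ
  have hδ : δ = ω⁻¹ := eq_inv_of_mul_eq_one_right hωδ
  have hωn : ω ^ n = 1 := by
    have h1 := pow_apply_smul f hfu n
    rw [hf, Module.End.one_apply] at h1
    have h2 : (ω ^ n - 1) • b 0 = 0 := by rw [sub_smul, one_smul, ← h1, sub_self]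
    exact sub_eq_zero.1 ((smul_eq_zero.1 h2).resolve_right hu0)
  by_cases hω2 : ω = ω⁻¹
  · exfalso
    have hω1 : ω = 1 := by
      have h2 : ω * ω = 1 := by nth_rewrite 2 [hω2]; exact mul_inv_cancel₀ hω0
      obtain ⟨m, hm⟩ := hn
      rw [hm, pow_succ, pow_mul, pow_two, h2, one_pow, one_mul] at hωn
      exact hωn
    rw [hω1, inv_one] at hδ
    rw [hω1, one_smul] at hfu
    rw [hδ, one_smul] at hβ
    have h3 : ∀ m : ℕ, (f ^ m) (b 1) = b 1 + ((m : k) * β) • b 0 := by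
      intro m
      induction m with
      | zero => simp
      | succ m ih =>
        rw [pow_succ', Module.End.mul_apply, ih, map_add, hβ, map_smul, hfu]
        push_cast
        rw [add_mul, one_mul, add_smul]
        abel
    have h4 := h3 n
    rw [hf, Module.End.one_apply] at h4
    have h5 : ((n : k) * β) • b 0 = 0 := by
      have h6 : b 1 + ((n : k) * β) • b 0 - b 1 = 0 := by rw [← h4, sub_self]
      rwa [add_sub_cancel_left] at h6
    have hβ0 : β = 0 := (mul_eq_zero.1 ((smul_eq_zero.1 h5).resolve_right hu0)).resolve_left hnk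
    apply hf1
    refine b.ext fun j => ?_
    rw [Module.End.one_apply]
    fin_cases j
    · exact hfu
    · change f (b 1) = b 1
      rw [hβ, hβ0, zero_smul, zero_add]
  · -- the second eigenvector
    have hd : ω⁻¹ - ω ≠ 0 := sub_ne_zero.2 (Ne.symm hω2)
    set κ : k := β / (ω⁻¹ - ω) with hκ
    have hκ' : κ * (ω⁻¹ - ω) = β := by rw [hκ]; exact div_mul_cancel₀ _ hd
    set w : M := b 1 + κ • b 0 with hw
    have hfw : f w = ω⁻¹ • w := by
      rw [hw, map_add, map_smul, hfu, hβ, hδ, smul_add, smul_smul, smul_smul, ← hκ']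
      have : (κ * (ω⁻¹ - ω)) • b 0 + ω⁻¹ • b 1 + (κ * ω) • b 0 = ω⁻¹ • b 1 + (κ * (ω⁻¹ - ω) + κ * ω) • b 0 := by
        rw [add_smul]; abel
      rw [this]
      congr 2
      ring
    have hli : LinearIndependent k ![b 0, w] := by
      rw [LinearIndependent.pair_iff]
      intro a c hac
      have h6 : (a + c * κ) • b 0 + c • b 1 = (0 : k) • b 0 + (0 : k) • b 1 := by
        rw [zero_smul, zero_smul, add_zero, ← hac, hw, smul_add, smul_smul, add_smul]
        abel
      obtain ⟨h7, h8⟩ := coord_inj b h6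
      rw [h8, zero_mul, add_zero] at h7
      exact ⟨h7, h8⟩
    let b' := basisOfLinearIndependentOfCardEqFinrank hli (by rw [hM]; rfl)
    refine ⟨b', ω, hω0, hω2, ?_, ?_⟩
    · have : b' 0 = b 0 := by simp [b']
      rw [this]; exact hfu
    · have : b' 1 = w := by simp [b']
      rw [this]; exact hfw

/-- **a finite `p`-group of odd order prime to the characteristic in `SL(M)`** -/
theorem pgroup_diag [IsAlgClosed k] (hM : finrank k M = 2) {p : ℕ} [hpf : Fact p.Prime] (hp2 : p ≠ 2)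
    (hpk : (p : k) ≠ 0) {P : Type*} [Group P] [Finite P] (hP : IsPGroup p P) (φ : P →* (M →ₗ[k] M))
    (hdet : ∀ g, LinearMap.det (φ g) = 1) :
    ∃ b : Basis (Fin 2) k M, ∃ lam : P →* kˣ, ∀ g, φ g (b 0) = (lam g : k) • b 0 ∧
      φ g (b 1) = (((lam g)⁻¹ : kˣ) : k) • b 1 := by
  have hfin : FiniteDimensional k M := FiniteDimensional.of_finrank_pos (by omega)
  by_cases htriv : ∀ g, φ g = 1
  · refine ⟨finBasisOfFinrankEq k M hM, 1, fun g => ?_⟩
    simp [htriv g]
  -- the image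
  let Q : Subgroup (M →ₗ[k] M)ˣ := φ.toHomUnits.range
  have hQ : IsPGroup p Q := hP.of_surjective φ.toHomUnits.rangeRestrict φ.toHomUnits.rangeRestrict_surjective
  have hQn : Nontrivial Q := by
    push Not at htriv
    obtain ⟨g, hg⟩ := htriv
    refine ⟨⟨⟨φ.toHomUnits g, ⟨g, rfl⟩⟩, 1, fun h => hg ?_⟩⟩
    have h1 := congrArg (fun q : Q => ((q : (M →ₗ[k] M)ˣ) : M →ₗ[k] M)) h
    simpa using h1
  have hQf : Finite Q := Finite.of_surjective φ.toHomUnits.rangeRestrict φ.toHomUnits.rangeRestrict_surjective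
  have hc := hQ.center_nontrivial
  obtain ⟨⟨c, hcc⟩, hc1⟩ := exists_ne (1 : Subgroup.center Q)
  have hcQ : c ≠ 1 := fun h => hc1 (Subtype.ext h)
  set f : M →ₗ[k] M := ((c : (M →ₗ[k] M)ˣ) : M →ₗ[k] M) with hf
  have hf1 : f ≠ 1 := fun h => hcQ (Subtype.ext (Units.ext h))
  obtain ⟨m, hm⟩ := hQ c
  have hfm : f ^ p ^ m = 1 := by
    have h1 := congrArg (fun q : Q => ((q : (M →ₗ[k] M)ˣ) : M →ₗ[k] M)) hm
    simpa using h1
  have hfdet : LinearMap.det f = 1 := by
    obtain ⟨g, hg⟩ := c.2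
    rw [hf, ← hg]
    exact hdet g
  have hodd : Odd (p ^ m) := (hpf.out.odd_of_ne_two hp2).pow
  obtain ⟨b, ω, hω0, hω, hb0, hb1⟩ := elem_diag hM f hodd (by push_cast; exact pow_ne_zero _ hpk) hfm hfdet hf1
  have hd : ω⁻¹ - ω ≠ 0 := sub_ne_zero.2 (Ne.symm hω)
  have key : ∀ g, ∃ a : kˣ, φ g (b 0) = (a : k) • b 0 ∧ φ g (b 1) = ((a⁻¹ : kˣ) : k) • b 1 := by
    intro g
    have hcom : ∀ v, f (φ g v) = φ g (f v) := by
      intro v
      have h1 := (Subgroup.mem_center_iff.1 hcc) ⟨φ.toHomUnits g, ⟨g, rfl⟩⟩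
      have h2 := congrArg (fun q : Q => ((q : (M →ₗ[k] M)ˣ) : M →ₗ[k] M) v) h1
      simpa using h2.symm
    obtain ⟨x, y, hxy⟩ := exists_coord b (φ g (b 0))
    obtain ⟨x', y', hxy'⟩ := exists_coord b (φ g (b 1))
    have hy : y = 0 := by
      have h1 := hcom (b 0)
      rw [hb0, map_smul, hxy, map_add, map_smul, map_smul, hb0, hb1, smul_smul, smul_smul, smul_add, smul_smul,
        smul_smul] at h1
      have h2 := (coord_inj b h1).2
      have h3 : y * (ω⁻¹ - ω) = 0 := by rw [mul_sub, h2, mul_comm y ω, sub_self]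
      exact (mul_eq_zero.1 h3).resolve_right hd
    have hx' : x' = 0 := by
      have h1 := hcom (b 1)
      rw [hb1, map_smul, hxy', map_add, map_smul, map_smul, hb0, hb1, smul_smul, smul_smul, smul_add, smul_smul,
        smul_smul] at h1
      have h2 := (coord_inj b h1).1
      have h3 : x' * (ω⁻¹ - ω) = 0 := by rw [mul_sub, h2, mul_comm x' ω⁻¹, sub_self]
      exact (mul_eq_zero.1 h3).resolve_right hd
    rw [hy, zero_smul, add_zero] at hxy
    have hdx : x * y' = 1 := by rw [← hdet g]; exact (det_upper b (φ g) hxy hxy').symm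
    rw [hx', zero_smul, zero_add] at hxy'
    refine ⟨Units.mk0 x (left_ne_zero_of_mul_eq_one hdx), hxy, ?_⟩
    rw [hxy']
    congr 1
    simp only [Units.val_inv_eq_inv_val, Units.val_mk0]
    exact eq_inv_of_mul_eq_one_right hdx
  choose lam hlam using key
  refine ⟨b, MonoidHom.mk' lam fun g h => ?_, fun g => hlam g⟩
  have h1 := (hlam (g * h)).1
  rw [map_mul, Module.End.mul_apply, (hlam h).1, map_smul, (hlam g).1, smul_smul, mul_comm] at h1
  exact Units.ext (smul_left_injective k (b.ne_zero 0) h1.symm)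

/-- two endomorphisms agree if they agree on a basis -/
theorem eq_one_of_lam (b : Basis (Fin 2) k M) {f : M →ₗ[k] M} {a : kˣ} (h0 : f (b 0) = (a : k) • b 0)
    (h1 : f (b 1) = ((a⁻¹ : kˣ) : k) • b 1) (ha : a = 1) : f = 1 := by
  refine b.ext fun j => ?_
  subst ha
  rw [Module.End.one_apply]
  fin_cases j
  · exact h0.trans (by simp)
  · exact h1.trans (by simp)

end plane

/-! ### `A₆` is not a section of `SL₂` in characteristic `≠ 3` -/

/-- `(0 1 2)` -/
def t1 : Equiv.Perm (Fin 6) := Equiv.swap 0 1 * Equiv.swap 1 2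

/-- `(3 4 5)` -/
def t2 : Equiv.Perm (Fin 6) := Equiv.swap 3 4 * Equiv.swap 4 5

theorem cent_t : ∀ τ : Equiv.Perm (Fin 6), τ * t1 = t1 * τ → τ * t2 = t2 * τ → τ ^ 3 = 1 ∧ Equiv.Perm.sign τ = 1 := by
  decide +kernel

theorem not_cyc : ∀ τ : Equiv.Perm (Fin 6), τ ^ 3 = 1 → (t1 = 1 ∨ t1 = τ ∨ t1 = τ ^ 2) →
    (t2 = 1 ∨ t2 = τ ∨ t2 = τ ^ 2) → False := by
  decide +kernel

theorem zpow_three {Γ : Type*} [Group Γ] {τ : Γ} (h : τ ^ 3 = 1) (n : ℤ) : τ ^ n = 1 ∨ τ ^ n = τ ∨ τ ^ n = τ ^ 2 := by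
  have h3 : τ ^ (3 : ℤ) = 1 := by exact_mod_cast h
  have h4 : τ ^ n = τ ^ (n % 3) := by
    conv_lhs => rw [← Int.emod_add_mul_ediv n 3, zpow_add, zpow_mul, h3, one_zpow, mul_one]
  have h5 : n % 3 = 0 ∨ n % 3 = 1 ∨ n % 3 = 2 := by omega
  rcases h5 with h5 | h5 | h5
  · left; rw [h4, h5, zpow_zero]
  · right; left; rw [h4, h5, zpow_one]
  · right; right; rw [h4, h5]; exact_mod_cast rfl

/-- **`A₆` is not a section of a finite subgroup of `SL₂(k)`, `char k ≠ 3`** -/
theorem contra3 {k M : Type*} [Field k] [IsAlgClosed k] [AddCommGroup M] [Module k M] (hM : finrank k M = 2)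
    (h3 : (3 : k) ≠ 0) {D : Type*} [Group D] [Finite D] (φ : D →* (M →ₗ[k] M)) (hdet : ∀ g, LinearMap.det (φ g) = 1)
    (ψ : D →* Equiv.Perm (Fin 6)) (hker : ∀ g, φ g = 1 → ψ g = 1)
    (himg : ∀ π : Equiv.Perm (Fin 6), Equiv.Perm.sign π = 1 → ∃ g, ψ g = π) : False := by
  have : Fact (Nat.Prime 3) := ⟨Nat.prime_three⟩
  let T : Subgroup (Equiv.Perm (Fin 6)) := centralizer {t1, t2}
  have hT : ∀ τ, τ ∈ T ↔ τ * t1 = t1 * τ ∧ τ * t2 = t2 * τ := by
    intro τ
    simp only [T, mem_centralizer_iff, Set.mem_insert_iff, Set.mem_singleton_iff, forall_eq_or_imp, forall_eq]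
    constructor
    · rintro ⟨a, b⟩; exact ⟨a.symm, b.symm⟩
    · rintro ⟨a, b⟩; exact ⟨a.symm, b.symm⟩
  have ht1 : t1 ∈ T := (hT _).2 ⟨rfl, by decide⟩
  have ht2 : t2 ∈ T := (hT _).2 ⟨by decide, rfl⟩
  have hT3 : IsPGroup 3 T := by
    intro τ
    refine ⟨1, Subtype.ext ?_⟩
    have := (cent_t τ ((hT _).1 τ.2).1 ((hT _).1 τ.2).2).1
    simpa using this
  let F : Subgroup D := T.comap ψ
  let f : ↥F →* ↥T := (ψ.comp F.subtype).codRestrict T fun g => g.2
  have hf : Function.Surjective f := by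
    intro τ
    obtain ⟨g, hg⟩ := himg τ (cent_t τ ((hT _).1 τ.2).1 ((hT _).1 τ.2).2).2
    refine ⟨⟨g, ?_⟩, Subtype.ext hg⟩
    change ψ g ∈ T
    rw [hg]; exact τ.2
  obtain ⟨P⟩ : Nonempty (Sylow 3 ↥F) := inferInstance
  have hPT : (P.mapSurjective hf : Subgroup ↥T) = ⊤ :=
    ((P.mapSurjective hf).is_maximal' (Q := ⊤) (hT3.to_subgroup _) le_top).symm
  have hex : ∀ τ : ↥T, ∃ g : ↥(P : Subgroup ↥F), f g = τ := by
    intro τ
    have h1 : τ ∈ (P.mapSurjective hf : Subgroup ↥T) := by rw [hPT]; trivial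
    rw [Sylow.coe_mapSurjective, Subgroup.mem_map] at h1
    obtain ⟨g, hg, hg'⟩ := h1
    exact ⟨⟨g, hg⟩, hg'⟩
  obtain ⟨g1, hg1⟩ := hex ⟨t1, ht1⟩
  obtain ⟨g2, hg2⟩ := hex ⟨t2, ht2⟩
  let j : ↥(P : Subgroup ↥F) →* D := F.subtype.comp (P : Subgroup ↥F).subtype
  obtain ⟨b, lam, hlam⟩ := pgroup_diag hM (by norm_num) (by exact_mod_cast h3) P.isPGroup' (φ.comp j)
    (fun g => hdet _)
  have hfr : Finite lam.range := Finite.of_surjective lam.rangeRestrict lam.rangeRestrict_surjective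
  obtain ⟨⟨y, ⟨g0, rfl⟩⟩, hy⟩ := IsCyclic.exists_generator (α := lam.range)
  have hgen : ∀ g, ∃ n : ℤ, ψ (j g) = ψ (j g0) ^ n := by
    intro g
    obtain ⟨n, hn⟩ := mem_zpowers_iff.1 (hy ⟨lam g, ⟨g, rfl⟩⟩)
    have h1 : lam g0 ^ n = lam g := by simpa using congrArg Subtype.val hn
    refine ⟨n, ?_⟩
    have h2 : lam (g * g0 ^ (-n)) = 1 := by rw [map_mul, map_zpow, ← h1, ← zpow_add, add_neg_cancel, zpow_zero]
    have h3 := hker _ (eq_one_of_lam b (hlam (g * g0 ^ (-n))).1 (hlam (g * g0 ^ (-n))).2 h2)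
    rw [map_mul, map_mul, map_zpow, map_zpow, zpow_neg, mul_inv_eq_one] at h3
    exact h3
  have hτ : ψ (j g0) ^ 3 = 1 := by
    have h1 : ψ (j g0) ∈ T := (g0 : ↥F).2
    exact (cent_t _ ((hT _).1 h1).1 ((hT _).1 h1).2).1
  have e1 : ψ (j g1) = t1 := congrArg Subtype.val hg1
  have e2 : ψ (j g2) = t2 := congrArg Subtype.val hg2
  obtain ⟨n1, hn1⟩ := hgen g1
  obtain ⟨n2, hn2⟩ := hgen g2
  refine not_cyc _ hτ ?_ ?_
  · rw [← e1, hn1]; exact zpow_three hτ n1
  · rw [← e2, hn2]; exact zpow_three hτ n2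

/-! ### anticommuting pairs -/

section half

variable {K V : Type*} [Field K] [AddCommGroup V] [Module K V]

theorem finrank_le_of_inj [FiniteDimensional K V] (B : V →ₗ[K] V) (hB : Function.Injective B) {X Y : Submodule K V}
    (h : ∀ x ∈ X, B x ∈ Y) : finrank K X ≤ finrank K Y := by
  have h1 := LinearMap.finrank_le_finrank_of_injective (f := B.restrict h) (by
    intro x y hxy
    apply Subtype.ext
    apply hB
    have := congrArg Subtype.val hxy
    simpa using this)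
  exact h1

/-- the joint eigenspace -/
def eig (X : Submodule K V) (A : V →ₗ[K] V) (α : K) : Submodule K V := X ⊓ LinearMap.ker (A - α • (1 : V →ₗ[K] V))

theorem mem_eig {X : Submodule K V} {A : V →ₗ[K] V} {α : K} {v : V} : v ∈ eig X A α ↔ v ∈ X ∧ A v = α • v := by
  rw [eig, Submodule.mem_inf, LinearMap.mem_ker, LinearMap.sub_apply, LinearMap.smul_apply, Module.End.one_apply,
    sub_eq_zero]

/-- a vector is the sum of two eigenvectors -/
theorem split (h2 : (2 : K) ≠ 0) {α : K} (hα : α ≠ 0) (A : V →ₗ[K] V) (U : Submodule K V)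
    (hAU : ∀ u ∈ U, A u ∈ U) (hAA : ∀ u ∈ U, A (A u) = (α * α) • u) {u : V} (hu : u ∈ U) :
    ∃ x ∈ eig U A α, ∃ y ∈ eig U A (-α), u = x + y := by
  refine ⟨(2 : K)⁻¹ • (u + α⁻¹ • A u), ?_, (2 : K)⁻¹ • (u - α⁻¹ • A u), ?_, ?_⟩
  · rw [mem_eig]
    refine ⟨U.smul_mem _ (U.add_mem hu (U.smul_mem _ (hAU u hu))), ?_⟩
    rw [map_smul, map_add, map_smul, hAA u hu, smul_comm α, smul_add α, smul_smul, smul_smul, ← mul_assoc,
      inv_mul_cancel₀ hα, one_mul, mul_inv_cancel₀ hα, one_smul, add_comm]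
  · rw [mem_eig]
    refine ⟨U.smul_mem _ (U.sub_mem hu (U.smul_mem _ (hAU u hu))), ?_⟩
    rw [map_smul, map_sub, map_smul, hAA u hu, smul_comm (-α), smul_sub (-α), smul_smul, smul_smul, ← mul_assoc,
      inv_mul_cancel₀ hα, one_mul, neg_mul, mul_inv_cancel₀ hα, neg_one_smul, neg_smul]
    congr 1
    abel
  · rw [← smul_add]
    have : u + α⁻¹ • A u + (u - α⁻¹ • A u) = (2 : K) • u := by rw [two_smul]; abel
    rw [this, smul_smul, inv_mul_cancel₀ h2, one_smul]

theorem eig_disj (h2 : (2 : K) ≠ 0) {α : K} (hα : α ≠ 0) (A : V →ₗ[K] V) (U : Submodule K V) :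
    eig U A α ⊓ eig U A (-α) = ⊥ := by
  rw [eq_bot_iff]
  rintro u ⟨hu1, hu2⟩
  replace hu1 := (mem_eig.1 hu1).2
  replace hu2 := (mem_eig.1 hu2).2
  rw [hu1] at hu2
  have h3 : (2 * α) • u = 0 := by
    rw [two_mul, add_smul]
    nth_rewrite 1 [hu2]
    rw [neg_smul, neg_add_cancel]
  exact (smul_eq_zero.1 h3).resolve_left (mul_ne_zero h2 hα)

/-- halving -/
theorem half [FiniteDimensional K V] (h2 : (2 : K) ≠ 0) {α : K} (hα : α ≠ 0) (A B : V →ₗ[K] V)
    (hB : Function.Injective B) (U : Submodule K V)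
    (hAU : ∀ u ∈ U, A u ∈ U) (hBU : ∀ u ∈ U, B u ∈ U) (hAA : ∀ u ∈ U, A (A u) = (α * α) • u)
    (hAB : ∀ u ∈ U, A (B u) = -B (A u)) :
    finrank K U = 2 * finrank K ↥(eig U A α) := by
  have hXY : finrank K (eig U A α) ≤ finrank K (eig U A (-α)) := finrank_le_of_inj B hB fun u hu => by
    rw [mem_eig] at hu ⊢
    exact ⟨hBU u hu.1, by rw [hAB u hu.1, hu.2, map_smul, neg_smul]⟩
  have hYX : finrank K (eig U A (-α)) ≤ finrank K (eig U A α) := finrank_le_of_inj B hB fun u hu => by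
    rw [mem_eig] at hu ⊢
    exact ⟨hBU u hu.1, by rw [hAB u hu.1, hu.2, map_smul, neg_smul, neg_neg]⟩
  have hsup : eig U A α ⊔ eig U A (-α) = U := by
    apply le_antisymm (sup_le inf_le_left inf_le_left)
    intro u hu
    obtain ⟨x, hx, y, hy, rfl⟩ := split h2 hα A U hAU hAA hu
    exact Submodule.add_mem_sup hx hy
  have h3 := Submodule.finrank_sup_add_finrank_inf_eq (eig U A α) (eig U A (-α))
  rw [eig_disj h2 hα, hsup, finrank_bot, add_zero] at h3
  omega

/-- an operator which commutes with `B` and vanishes on the eigenspace of `A` vanishes -/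
theorem half_ext (h2 : (2 : K) ≠ 0) {α : K} (hα : α ≠ 0) (A B T : V →ₗ[K] V) (hB : Function.Injective B)
    (U : Submodule K V) (hAU : ∀ u ∈ U, A u ∈ U) (hBU : ∀ u ∈ U, B u ∈ U)
    (hAA : ∀ u ∈ U, A (A u) = (α * α) • u) (hAB : ∀ u ∈ U, A (B u) = -B (A u))
    (hTB : ∀ u ∈ U, T (B u) = B (T u)) (hT : ∀ u ∈ eig U A α, T u = 0) : ∀ u ∈ U, T u = 0 := by
  intro u hu
  obtain ⟨x, hx, y, hy, rfl⟩ := split h2 hα A U hAU hAA hu
  have hyU := (mem_eig.1 hy).1
  have h1 : T (B y) = 0 := hT _ (mem_eig.2 ⟨hBU y hyU, by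
    rw [hAB y hyU, (mem_eig.1 hy).2, map_smul, neg_smul, neg_neg]⟩)
  rw [hTB y hyU] at h1
  have h4 : T y = 0 := hB (by rw [h1, map_zero])
  rw [map_add, hT x hx, h4, add_zero]

/-- **two commuting anticommuting pairs** -/
theorem quad [FiniteDimensional K V] (h2 : (2 : K) ≠ 0) {α γ : K} (hα : α ≠ 0) (hγ : γ ≠ 0) (A B C D : V →ₗ[K] V)
    (hB : Function.Injective B) (hD : Function.Injective D) (X : Submodule K V)
    (hAX : ∀ u ∈ X, A u ∈ X) (hBX : ∀ u ∈ X, B u ∈ X) (hCX : ∀ u ∈ X, C u ∈ X) (hDX : ∀ u ∈ X, D u ∈ X)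
    (hAA : ∀ u ∈ X, A (A u) = (α * α) • u) (hCC : ∀ u ∈ X, C (C u) = (γ * γ) • u)
    (hAB : ∀ u ∈ X, A (B u) = -B (A u)) (hCD : ∀ u ∈ X, C (D u) = -D (C u))
    (hAC : ∀ u ∈ X, A (C u) = C (A u)) (hAD : ∀ u ∈ X, A (D u) = D (A u)) :
    finrank K X = 4 * finrank K ↥(eig (eig X A α) C γ) ∧
    ∀ T : V →ₗ[K] V, (∀ u ∈ X, T (B u) = B (T u)) → (∀ u ∈ X, T (D u) = D (T u)) →
      (∀ u ∈ eig (eig X A α) C γ, T u = 0) → ∀ u ∈ X, T u = 0 := by
  have hC1 : ∀ u ∈ eig X A α, C u ∈ eig X A α := by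
    intro u hu
    rw [mem_eig] at hu ⊢
    exact ⟨hCX u hu.1, by rw [hAC u hu.1, hu.2, map_smul]⟩
  have hD1 : ∀ u ∈ eig X A α, D u ∈ eig X A α := by
    intro u hu
    rw [mem_eig] at hu ⊢
    exact ⟨hDX u hu.1, by rw [hAD u hu.1, hu.2, map_smul]⟩
  have hle : ∀ u ∈ eig X A α, u ∈ X := fun u hu => (mem_eig.1 hu).1
  refine ⟨?_, fun T hTB hTD hT => ?_⟩
  · have e1 := half h2 hα A B hB X hAX hBX hAA hAB
    have e2 := half h2 hγ C D hD (eig X A α) hC1 hD1 (fun u hu => hCC u (hle u hu)) (fun u hu => hCD u (hle u hu))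
    omega
  · refine half_ext h2 hα A B T hB X hAX hBX hAA hAB hTB ?_
    exact half_ext h2 hγ C D T hD (eig X A α) hC1 hD1 (fun u hu => hCC u (hle u hu))
      (fun u hu => hCD u (hle u hu)) (fun u hu => hTD u (hle u hu)) hT

end half

/-! ### restriction of a representation -/

section res

variable {K V Γ : Type*} [Field K] [AddCommGroup V] [Module K V] [Group Γ]

/-- the restriction of a representation to an invariant subspace -/
def res (ρ : Γ →* (V →ₗ[K] V)) (U : Submodule K V) (h : ∀ g, ∀ u ∈ U, ρ g u ∈ U) : Γ →* (↥U →ₗ[K] ↥U) where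
  toFun g := (ρ g).restrict (h g)
  map_one' := by
    ext u
    simp
  map_mul' g g' := by
    ext u
    simp

theorem res_apply (ρ : Γ →* (V →ₗ[K] V)) (U : Submodule K V) (h : ∀ g, ∀ u ∈ U, ρ g u ∈ U) (g : Γ) (u : ↥U) :
    ((res ρ U h g u : ↥U) : V) = ρ g u := rfl

/-- a perfect group acts with determinant 1 -/
theorem det_one (hΓ : commutator Γ = ⊤) (ρ : Γ →* (V →ₗ[K] V)) (g : Γ) : LinearMap.det (ρ g) = 1 := by
  let f : Γ →* Kˣ := (((LinearMap.det (M := V) (A := K)) : (V →ₗ[K] V) →* K).comp ρ).toHomUnits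
  have h1 : g ∈ commutator Γ := by rw [hΓ]; trivial
  have h2 : f g = 1 := Abelianization.commutator_subset_ker f h1
  have h3 := congrArg Units.val h2
  simpa [f] using h3

end res

end Cfsg.Agent.H858.Co3
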