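import Cfsg.Agent.H858.Co3.EigLin
import Cfsg.Agent.H858.Co3.EigGen

/-!
# S1920, EIG: the multiplicity spaces (helper858)

`mulspace` : for `i² = -1` a plane `U` in the `i`-eigenspace of `s`, stable under all operators commuting with `N0`;
an operator commuting with `N0` and vanishing on `U` vanishes on the `i`-eigenspace.
-/

set_option autoImplicit false

open Subgroup Module

namespace Cfsg.Agent.H858.Co3

open Cfsg.Agent.H415.C3

variable {G : Type*} [Group G] {N0 A E : Subgroup G} {z s x r : G} {ψ : ↥A →* Equiv.Perm (Fin 6)}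
variable {k V : Type*} [Field k] [AddCommGroup V] [Module k V]

theorem mem_H {z g : G} : g ∈ centralizer ({z} : Set G) ↔ g * z = z * g := by
  rw [mem_centralizer_singleton_iff]

theorem N_H (K : Kit N0 A E z s x r ψ) : ∀ n ∈ N0, n ∈ centralizer ({z} : Set G) := fun n hn =>
  mem_H.2 (K.z_comm (K.N_A hn))

theorem E_H (K : Kit N0 A E z s x r ψ) : ∀ e ∈ E, e ∈ centralizer ({z} : Set G) := fun e he =>
  mem_H.2 (K.z_comm (K.E_A he))

theorem s_H (K : Kit N0 A E z s x r ψ) : s ∈ centralizer ({z} : Set G) := N_H K s K.sN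

theorem s_r (K : Kit N0 A E z s x r ψ) : s * r = r * s⁻¹ := by
  have h := K.r_s
  calc s * r = s * (r * s) * s⁻¹ := by group
    _ = r * s⁻¹ := by rw [h]; group

theorem r_H (K : Kit N0 A E z s x r ψ) : r ∈ centralizer ({z} : Set G) := by
  rw [mem_H]
  have hz : s⁻¹ * s⁻¹ = z := by
    have h1 : z⁻¹ = z := inv_eq_of_mul_eq_one_left K.z_sq
    rw [← mul_inv_rev, K.s_sq, h1]
  calc r * z = r * s * s := by rw [mul_assoc, K.s_sq]
    _ = s⁻¹ * (r * s) := by rw [← mul_assoc s⁻¹, ← K.r_s]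
    _ = (s⁻¹ * s⁻¹) * r := by rw [K.r_s, mul_assoc]
    _ = z * r := by rw [hz]

section R

variable (R : ↥(centralizer ({z} : Set G)) →* (V →ₗ[k] V))

theorem R_mul {x y w : G} (hx : x ∈ centralizer ({z} : Set G)) (hy : y ∈ centralizer ({z} : Set G))
    (hw : w ∈ centralizer ({z} : Set G)) (h : x * y = w) (v : V) : R ⟨x, hx⟩ (R ⟨y, hy⟩ v) = R ⟨w, hw⟩ v := by
  rw [← Module.End.mul_apply, ← map_mul]
  congr 2
  exact Subtype.ext h

theorem R_inj (g : ↥(centralizer ({z} : Set G))) : Function.Injective (R g) := by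
  intro u v huv
  have h3 : ∀ w : V, R g⁻¹ (R g w) = w := by
    intro w
    rw [← Module.End.mul_apply, ← map_mul, inv_mul_cancel, map_one, Module.End.one_apply]
  rw [← h3 u, ← h3 v, huv]

theorem R_com {x y : G} (hx : x ∈ centralizer ({z} : Set G)) (hy : y ∈ centralizer ({z} : Set G))
    (h : x * y = y * x) (v : V) : R ⟨x, hx⟩ (R ⟨y, hy⟩ v) = R ⟨y, hy⟩ (R ⟨x, hx⟩ v) := by
  rw [R_mul R hx hy (mul_mem hx hy) rfl v, R_mul R hy hx (mul_mem hx hy) h.symm v]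

theorem R_anti {x y : G} (hx : x ∈ centralizer ({z} : Set G)) (hy : y ∈ centralizer ({z} : Set G))
    (hz : z ∈ centralizer ({z} : Set G)) (hRz : ∀ v, R ⟨z, hz⟩ v = -v)
    (h : x * y = z * (y * x)) (v : V) : R ⟨x, hx⟩ (R ⟨y, hy⟩ v) = -R ⟨y, hy⟩ (R ⟨x, hx⟩ v) := by
  rw [R_mul R hx hy (mul_mem hx hy) rfl v, R_mul R hy hx (mul_mem hy hx) rfl v, ← hRz,
    R_mul R hz (mul_mem hy hx) (mul_mem hx hy) h.symm v]

end R

/-- **the multiplicity space** -/
theorem mulspace [Finite G] (K : Kit N0 A E z s x r ψ) (R : ↥(centralizer ({z} : Set G)) →* (V →ₗ[k] V))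
    (hV : finrank k V = 16) (h2 : (2 : k) ≠ 0) (hz : z ∈ centralizer ({z} : Set G)) (hRz : ∀ v, R ⟨z, hz⟩ v = -v)
    {i : k} (hi : i * i = -1) :
    ∃ U : Submodule k V, finrank k U = 2 ∧ (∀ u ∈ U, R ⟨s, s_H K⟩ u = i • u) ∧
      ∀ T : V →ₗ[k] V, (∀ n (hn : n ∈ N0), ∀ v, T (R ⟨n, N_H K n hn⟩ v) = R ⟨n, N_H K n hn⟩ (T v)) →
        (∀ u ∈ U, T u ∈ U) ∧ ((∀ u ∈ U, T u = 0) → ∀ v, R ⟨s, s_H K⟩ v = i • v → T v = 0) := by
  have hfin : FiniteDimensional k V := FiniteDimensional.of_finrank_pos (by omega)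
  obtain ⟨a, ha, b, hb, c, hc, d, hd, haa, hcc, hab, hcd, hac, had, hbc, hbd⟩ := kit_gens K
  have hi0 : i ≠ 0 := by
    rintro rfl
    rw [mul_zero] at hi
    exact absurd hi (by simp)
  have P1 : ∀ (h : (1 : G) ∈ centralizer ({z} : Set G)) (v : V), R ⟨1, h⟩ v = v := by
    intro h v
    have : R ⟨1, h⟩ = 1 := map_one R
    rw [this, Module.End.one_apply]
  have hs := s_H K
  have ha' := N_H K a ha
  have hb' := N_H K b hb
  have hc' := N_H K c hc
  have hd' := N_H K d hd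
  set X : Submodule k V := eig ⊤ (R ⟨s, hs⟩) i with hX
  have mX : ∀ v, v ∈ X ↔ R ⟨s, hs⟩ v = i • v := by
    intro v
    rw [hX, mem_eig]
    simp
  have hSS : ∀ v, R ⟨s, hs⟩ (R ⟨s, hs⟩ v) = (i * i) • v := by
    intro v
    rw [R_mul R hs hs hz K.s_sq, hRz, hi, neg_one_smul]
  have hdim : finrank k X = 8 := by
    have h1 := half h2 hi0 (R ⟨s, hs⟩) (R ⟨r, r_H K⟩) (R_inj R _) ⊤ (fun _ _ => trivial) (fun _ _ => trivial)
      (fun v _ => hSS v) (fun v _ => by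
        refine R_anti R hs (r_H K) hz hRz ?_ v
        rw [s_r K, K.s_inv, ← mul_assoc, mem_H.1 (r_H K), mul_assoc])
    rw [finrank_top, hV] at h1
    rw [hX]
    omega
  have inv : ∀ T : V →ₗ[k] V, (∀ v, T (R ⟨s, hs⟩ v) = R ⟨s, hs⟩ (T v)) → ∀ u ∈ X, T u ∈ X := by
    intro T hT u hu
    rw [mX] at hu ⊢
    rw [← hT, hu, map_smul]
  have hq := quad (α := 1) (γ := 1) h2 one_ne_zero one_ne_zero (R ⟨a, ha'⟩) (R ⟨b, hb'⟩) (R ⟨c, hc'⟩) (R ⟨d, hd'⟩)
    (R_inj R _) (R_inj R _) X (inv _ (R_com R _ _ (K.s_cen a ha))) (inv _ (R_com R _ _ (K.s_cen b hb)))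
    (inv _ (R_com R _ _ (K.s_cen c hc))) (inv _ (R_com R _ _ (K.s_cen d hd)))
    (fun u _ => by rw [R_mul R ha' ha' (one_mem _) haa, P1, one_mul, one_smul])
    (fun u _ => by rw [R_mul R hc' hc' (one_mem _) hcc, P1, one_mul, one_smul])
    (fun u _ => R_anti R ha' hb' hz hRz hab u) (fun u _ => R_anti R hc' hd' hz hRz hcd u)
    (fun u _ => R_com R ha' hc' hac u) (fun u _ => R_com R ha' hd' had u)
  refine ⟨eig (eig X (R ⟨a, ha'⟩) 1) (R ⟨c, hc'⟩) 1, by omega, ?_, ?_⟩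
  · intro u hu
    exact (mX u).1 (mem_eig.1 (mem_eig.1 hu).1).1
  · intro T hT
    refine ⟨?_, ?_⟩
    · intro u hu
      rw [mem_eig, mem_eig, mX] at hu ⊢
      obtain ⟨⟨h3, h4⟩, h5⟩ := hu
      refine ⟨⟨?_, ?_⟩, ?_⟩
      · rw [← hT s K.sN, h3, map_smul]
      · rw [← hT a ha, h4, map_smul]
      · rw [← hT c hc, h5, map_smul]
    · intro h0 v hv
      exact hq.2 T (fun u _ => hT b hb u) (fun u _ => hT d hd u) h0 v ((mX v).2 hv)

end Cfsg.Agent.H858.Co3
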